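import Cfsg.Agent.H286.EPK.Z

/-!
# S5745 CrossK, E8(2), T = A13, A14 (helper286): the T-side

`E8(2)` has no element of order 143 (helper27, `H27/TS/No143.lean`).
-/

set_option autoImplicit false

namespace Cfsg.Agent.H286.EPK

variable {G : Type*} [Group G] [Finite G] {N : Subgroup G} {T : Type*} [Group T] {k : ℕ}

/-- `G` without elements of order `143 = 11 * 13`: `T` has order prime to 11 or to 13. -/
theorem e8_two (e : N ≃* (Fin k → T)) (hk : 2 ≤ k) (h143 : ∀ x : G, orderOf x ≠ 143)
    (h11 : 11 ∣ Nat.card T) (h13 : 13 ∣ Nat.card T) : False := by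
  obtain ⟨x, -, hx⟩ := exists_order_mul e hk (r := 11) (s := 13) (by norm_num) (by norm_num) (by norm_num) h11 h13
  exact h143 x (by rw [hx])

theorem e8_two_alt (e : N ≃* (Fin k → T)) (hk : 2 ≤ k) (h143 : ∀ x : G, orderOf x ≠ 143) {n : ℕ} (hn : 13 ≤ n)
    (f : T ≃* alternatingGroup (Fin n)) : False := by
  have h0 : Nat.card T = Nat.factorial n / 2 := by
    haveI : Nontrivial (Fin n) := Fin.nontrivial_iff_two_le.2 (by omega)
    rw [Nat.card_congr f.toEquiv, nat_card_alternatingGroup, Nat.card_fin]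
  have h1 : 2 * (11 * 13) ∣ Nat.factorial n := by
    refine (show 2 * (11 * 13) ∣ Nat.factorial 13 by decide).trans (Nat.factorial_dvd_factorial hn)
  have h2 : 11 * 13 ∣ Nat.card T := by
    rw [h0]
    exact (Nat.dvd_div_iff_mul_dvd (dvd_trans (by norm_num) h1)).2 h1
  exact e8_two e hk h143 (dvd_trans (by norm_num) h2) (dvd_trans (by norm_num) h2)

end Cfsg.Agent.H286.EPK
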