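import Cfsg.Agent.H286.EPK.EightTwo
import Cfsg.Agent.H27.TS.No143

/-!
# S5745 CrossK, E8(2), T = A13, A14 (helper286): final form
-/

set_option autoImplicit false

namespace Cfsg.Agent.H286.EPK

/-- no `T^k`, `k ≥ 2`, `143 ∣ |T|`, in `E8(2)` -/
theorem e8_two_card {F : Type*} [Field F] [Finite F] (hF : Nat.card F = 2)
    {N : Subgroup ↥(Cfsg.Lie.chevE8.group F)} {T : Type*} [Group T] {k : ℕ} (e : N ≃* (Fin k → T)) (hk : 2 ≤ k)
    (h11 : 11 ∣ Nat.card T) (h13 : 13 ∣ Nat.card T) : False :=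
  e8_two e hk (fun x => Cfsg.Agent.H27.TS.No143.no143 hF x) h11 h13

/-- no `A_n^k`, `k ≥ 2`, `n ≥ 13`, in `E8(2)` -/
theorem e8_two_alternating {F : Type*} [Field F] [Finite F] (hF : Nat.card F = 2)
    {N : Subgroup ↥(Cfsg.Lie.chevE8.group F)} {T : Type*} [Group T] {k : ℕ} (e : N ≃* (Fin k → T)) (hk : 2 ≤ k)
    {n : ℕ} (hn : 13 ≤ n) (f : T ≃* alternatingGroup (Fin n)) : False :=
  e8_two_alt e hk (fun x => Cfsg.Agent.H27.TS.No143.no143 hF x) hn f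

end Cfsg.Agent.H286.EPK
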