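import Mathlib

/-!
# S5745 CrossK: tool (Z) (helper286)

`N ≤ G`, `N ≃* T^k`, `t ∈ T`, `x ∈ N` the element with coordinates `(t, 1, .., 1)`:
`orderOf x = orderOf t` and `|C_T(t)| |T|^(k-1)` divides `|C_G(x)|`.
-/

set_option autoImplicit false

namespace Cfsg.Agent.H286.EPK

open Subgroup

variable {G : Type*} [Group G] {N : Subgroup G} {T : Type*} [Group T] {k : ℕ}

/-- the map `C_T(t) × T^(k-1) → T^k` -/
noncomputable def glue (i0 : Fin k) (t : T) :
    ↥(centralizer ({t} : Set T)) × ({i : Fin k // i ≠ i0} → T) →* (Fin k → T) where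
  toFun p i := if h : i = i0 then (p.1 : T) else p.2 ⟨i, h⟩
  map_one' := by
    funext i
    by_cases h : i = i0 <;> simp [h]
  map_mul' p q := by
    funext i
    by_cases h : i = i0 <;> simp [h]

theorem glue_inj (i0 : Fin k) (t : T) : Function.Injective (glue i0 t) := by
  intro p q h
  ext i
  · have := congrFun h i0
    simpa [glue] using this
  · have := congrFun h i.1
    simpa [glue, i.2] using this

theorem ms_inj (i0 : Fin k) : Function.Injective (fun t : T => (Pi.mulSingle i0 t : Fin k → T)) := by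
  intro a b h
  have := congrFun h i0
  simpa using this

theorem finite_T [Finite G] (e : N ≃* (Fin k → T)) (hk : 0 < k) : Finite T := by
  have h0 : Finite (Fin k → T) := Finite.of_equiv N e.toEquiv
  exact Finite.of_injective _ (ms_inj (T := T) ⟨0, hk⟩)

theorem exists_elt [Finite G] (e : N ≃* (Fin k → T)) (hk : 0 < k) (t : T) :
    ∃ x : G, x ∈ N ∧ orderOf x = orderOf t ∧
      Nat.card (centralizer ({t} : Set T)) * Nat.card T ^ (k - 1) ∣ Nat.card (centralizer ({x} : Set G)) := by
  classical
  obtain ⟨i0⟩ : Nonempty (Fin k) := ⟨⟨0, hk⟩⟩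
  set y : N := e.symm (Pi.mulSingle i0 t) with hy
  refine ⟨(y : G), y.2, ?_, ?_⟩
  · rw [Subgroup.orderOf_coe, hy, MulEquiv.orderOf_eq]
    exact orderOf_injective (MonoidHom.mulSingle (fun _ : Fin k => T) i0) (ms_inj i0) t
  · have hcard : Nat.card (↥(centralizer ({t} : Set T)) × ({i : Fin k // i ≠ i0} → T)) =
        Nat.card (centralizer ({t} : Set T)) * Nat.card T ^ (k - 1) := by
      rw [Nat.card_prod, Nat.card_fun, Nat.card_eq_fintype_card (α := {i : Fin k // i ≠ i0}),
        Fintype.card_subtype_compl, Fintype.card_fin, Fintype.card_subtype_eq]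
    rw [← hcard]
    let f : ↥(centralizer ({t} : Set T)) × ({i : Fin k // i ≠ i0} → T) →* G :=
      (N.subtype.comp e.symm.toMonoidHom).comp (glue i0 t)
    have hf : Function.Injective f := by
      intro p q h
      exact glue_inj i0 t (e.symm.injective (Subtype.ext h))
    have hmem : ∀ p, f p ∈ centralizer ({(y : G)} : Set G) := by
      intro p
      rw [mem_centralizer_singleton_iff]
      have h1 : glue i0 t p * Pi.mulSingle i0 t = Pi.mulSingle i0 t * glue i0 t p := by
        funext i
        by_cases h : i = i0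
        · subst h
          simp only [Pi.mul_apply, Pi.mulSingle_eq_same]
          have h2 : glue i t p i = (p.1 : T) := by simp [glue]
          rw [h2]
          exact (mem_centralizer_singleton_iff.1 p.1.2)
        · simp [Pi.mulSingle_eq_of_ne h]
      have h2 := congrArg (fun z => ((e.symm z : N) : G)) h1
      simpa [f, hy] using h2
    have hinj : Function.Injective (f.codRestrict _ hmem) := by
      intro p q h
      have h5 := congrArg (fun z : ↥(centralizer ({(y : G)} : Set G)) => (z : G)) h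
      exact hf h5
    exact Subgroup.card_dvd_of_injective (f.codRestrict _ hmem) hinj

/-- Tool (Z). -/
theorem kill_z [Finite G] (e : N ≃* (Fin k → T)) (hk : 2 ≤ k) {r : ℕ} (hr : r.Prime) (hT : r ∣ Nat.card T)
    (hc : ∀ x : G, orderOf x = r → Nat.card (centralizer ({x} : Set G)) < r * Nat.card T) : False := by
  classical
  haveI : Finite T := finite_T e (by omega)
  haveI := Fact.mk hr
  obtain ⟨t, ht⟩ := exists_prime_orderOf_dvd_card' r hT
  obtain ⟨x, -, hx, hd⟩ := exists_elt e (by omega) t
  rw [ht] at hx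
  have h1 := hc x hx
  have h2 := Nat.le_of_dvd Nat.card_pos hd
  have h3 : r ≤ Nat.card (centralizer ({t} : Set T)) := by
    rw [← ht, ← Nat.card_zpowers]
    have hle : zpowers t ≤ centralizer ({t} : Set T) := by
      rw [zpowers_le, mem_centralizer_singleton_iff]
    exact Nat.card_le_card_of_injective (Subgroup.inclusion hle) (Subgroup.inclusion_injective hle)
  have h4 : Nat.card T ≤ Nat.card T ^ (k - 1) := by
    calc Nat.card T = Nat.card T ^ 1 := (pow_one _).symm
      _ ≤ Nat.card T ^ (k - 1) := Nat.pow_le_pow_right Nat.card_pos (by omega)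
  have := Nat.mul_le_mul h3 h4
  omega

/-- the divisibility form: if `|T|` does not divide `|C_G(x)|` for the elements `x` of order `r` -/
theorem kill_dvd [Finite G] (e : N ≃* (Fin k → T)) (hk : 2 ≤ k) {r : ℕ} (hr : r.Prime) (hT : r ∣ Nat.card T)
    (hc : ∀ x : G, orderOf x = r → ¬ Nat.card T ∣ Nat.card (centralizer ({x} : Set G))) : False := by
  classical
  haveI : Finite T := finite_T e (by omega)
  haveI := Fact.mk hr
  obtain ⟨t, ht⟩ := exists_prime_orderOf_dvd_card' r hT
  obtain ⟨x, -, hx, hd⟩ := exists_elt e (by omega) t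
  rw [ht] at hx
  exact hc x hx (((dvd_pow_self _ (by omega)).mul_left _).trans hd)

/-- if the prime `s` divides `|T|` but no `|C_G(x)|`, `x` of order `r`, `r ∣ |T|` -/
theorem kill_prime [Finite G] (e : N ≃* (Fin k → T)) (hk : 2 ≤ k) {r s : ℕ} (hr : r.Prime) (hT : r ∣ Nat.card T)
    (hs : s ∣ Nat.card T) (hc : ∀ x : G, orderOf x = r → ¬ s ∣ Nat.card (centralizer ({x} : Set G))) : False :=
  kill_dvd e hk hr hT fun x hx h => hc x hx (hs.trans h)

/-- `T^k ≤ G`, `k ≥ 2`, `r ≠ s` primes dividing `|T|`: `G` has an element of order `r s`. -/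
theorem exists_order_mul [Finite G] (e : N ≃* (Fin k → T)) (hk : 2 ≤ k) {r s : ℕ} (hr : r.Prime) (hs : s.Prime)
    (hrs : r ≠ s) (hrT : r ∣ Nat.card T) (hsT : s ∣ Nat.card T) : ∃ x : G, x ∈ N ∧ orderOf x = r * s := by
  classical
  haveI : Finite T := finite_T e (by omega)
  haveI := Fact.mk hr
  haveI := Fact.mk hs
  obtain ⟨t, ht⟩ := exists_prime_orderOf_dvd_card' r hrT
  obtain ⟨u, hu⟩ := exists_prime_orderOf_dvd_card' s hsT
  obtain ⟨i0, i1, hi⟩ : ∃ i0 i1 : Fin k, i0 ≠ i1 :=
    ⟨⟨0, by omega⟩, ⟨1, by omega⟩, fun h => by simp [Fin.ext_iff] at h⟩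
  have h1 : Commute (Pi.mulSingle i0 t : Fin k → T) (Pi.mulSingle i1 u) := Pi.mulSingle_commute (f := fun _ : Fin k => T) hi t u
  have h2 : orderOf (Pi.mulSingle i0 t : Fin k → T) = r := by
    rw [← ht]
    exact orderOf_injective (MonoidHom.mulSingle (fun _ : Fin k => T) i0) (ms_inj i0) t
  have h3 : orderOf (Pi.mulSingle i1 u : Fin k → T) = s := by
    rw [← hu]
    exact orderOf_injective (MonoidHom.mulSingle (fun _ : Fin k => T) i1) (ms_inj i1) u
  have h4 : orderOf ((Pi.mulSingle i0 t : Fin k → T) * Pi.mulSingle i1 u) = r * s := by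
    rw [h1.orderOf_mul_eq_mul_orderOf_of_coprime (by rw [h2, h3]; exact (Nat.coprime_primes hr hs).2 hrs), h2, h3]
  refine ⟨((e.symm ((Pi.mulSingle i0 t : Fin k → T) * Pi.mulSingle i1 u) : N) : G), (e.symm _).2, ?_⟩
  rw [Subgroup.orderOf_coe, MulEquiv.orderOf_eq, h4]

end Cfsg.Agent.H286.EPK
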